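import Cfsg.Agent.H821.K547.Defs
import Mathlib

/-!
# S4547: split extensions (helper753)

* `rk_of_split` : `P = V : K` a finite 2-group, `V ≠ 1` normal, `Rk n K` ⟹ `Rk (n + 1) P`.
* `d3_of_split` : `M ≤ G` of odd index, `M = V : K`, `V ≠ 1` a normal 2-subgroup of `M`, `Rk 2` for a Sylow
  2-subgroup of `K` ⟹ `D3 G`.
-/

set_option autoImplicit false

namespace Cfsg.Agent.H753.K547

open Cfsg.Agent.H821.K547

universe u v

theorem sq_one : ∀ x : Multiplicative (ZMod 2), x * x = 1 := by decide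

theorem eq_of_ne : ∀ x y : Multiplicative (ZMod 2), x ≠ 1 → y ≠ 1 → x = y := by decide

/-- a nontrivial finite 2-group maps onto a group of order two -/
theorem exists_hom_two {V : Type u} [Group V] [Finite V] (hV : IsPGroup 2 V) [Nontrivial V] :
    ∃ f : V →* Multiplicative (ZMod 2), f ≠ 1 := by
  have : Fact (Nat.Prime 2) := ⟨Nat.prime_two⟩
  obtain ⟨n, hn⟩ := IsPGroup.iff_card.1 hV
  have hn0 : n ≠ 0 := by
    rintro rfl
    rw [pow_zero, Nat.card_eq_one_iff_unique] at hn
    obtain ⟨h1, -⟩ := hn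
    exact not_subsingleton V h1
  obtain ⟨k, rfl⟩ := Nat.exists_eq_succ_of_ne_zero hn0
  obtain ⟨N, hN⟩ := Sylow.exists_subgroup_card_pow_prime 2 (G := V) (n := k) (by rw [hn]; exact pow_dvd_pow 2 (Nat.le_succ k))
  have hi : N.index = 2 := by
    have h1 := N.card_mul_index
    rw [hn, hN, pow_succ] at h1
    exact Nat.eq_of_mul_eq_mul_left (by positivity) h1
  have hnor : N.Normal := Subgroup.normal_of_index_eq_two hi
  have hc : Nat.card (V ⧸ N) = 2 := hi
  have hcyc : IsCyclic (V ⧸ N) := isCyclic_of_prime_card hc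
  have hc2 : Nat.card (Multiplicative (ZMod 2)) = 2 := by
    show Nat.card (ZMod 2) = 2
    rw [Nat.card_eq_fintype_card, ZMod.card]
  have hcyc2 : IsCyclic (Multiplicative (ZMod 2)) := isCyclic_of_prime_card hc2
  let e : V ⧸ N ≃* Multiplicative (ZMod 2) := mulEquivOfCyclicCardEq (hc.trans hc2.symm)
  refine ⟨e.toMonoidHom.comp (QuotientGroup.mk' N), fun h => ?_⟩
  have h2 : ∀ v : V, (QuotientGroup.mk' N v) = 1 := by
    intro v
    apply e.injective
    rw [map_one]
    exact DFunLike.congr_fun h v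
  have h3 : N = ⊤ := by
    rw [eq_top_iff]
    intro v _
    exact (QuotientGroup.eq_one_iff v).1 (h2 v)
  rw [h3, Subgroup.index_top] at hi
  omega

/-- an invariant homomorphism onto a group of order two -/
theorem exists_inv_hom {P : Type u} [Group P] [Finite P] (hP : IsPGroup 2 P) (V : Subgroup P) [V.Normal]
    (hV : V ≠ ⊥) : ∃ f : V →* Multiplicative (ZMod 2), f ≠ 1 ∧
      ∀ (p : P) (v : V), f ⟨p * v * p⁻¹, Subgroup.Normal.conj_mem inferInstance _ v.2 p⟩ = f v := by
  have hfact : Fact (Nat.Prime 2) := ⟨Nat.prime_two⟩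
  have hnt : Nontrivial V := (Subgroup.nontrivial_iff_ne_bot V).2 hV
  obtain ⟨f0, hf0⟩ := exists_hom_two (hP.to_subgroup V)
  have hfin : Finite (V →* Multiplicative (ZMod 2)) :=
    Finite.of_injective (fun f : V →* Multiplicative (ZMod 2) => (f : V → Multiplicative (ZMod 2)))
      DFunLike.coe_injective
  -- the action
  let c : P →* MulAut V := MulAut.conjNormal
  let act : MulAction P (V →* Multiplicative (ZMod 2)) :=
    { smul := fun p f => f.comp (c p⁻¹).toMonoidHom
      one_smul := fun f => by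
        show f.comp (c 1⁻¹).toMonoidHom = f
        rw [inv_one, map_one]
        rfl
      mul_smul := fun p q f => by
        show f.comp (c (p * q)⁻¹).toMonoidHom = (f.comp (c q⁻¹).toMonoidHom).comp (c p⁻¹).toMonoidHom
        rw [mul_inv_rev, map_mul]
        rfl }
  have hd : 2 ∣ Nat.card (V →* Multiplicative (ZMod 2)) := by
    have h1 : f0 * f0 = 1 := by
      ext v
      exact congrArg Multiplicative.toAdd (sq_one (f0 v))
    have h2 : orderOf f0 = 2 := orderOf_eq_prime (by rw [pow_two]; exact h1) hf0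
    have h3 := orderOf_dvd_natCard f0
    rwa [h2] at h3
  obtain ⟨f, hf, hf1⟩ := hP.exists_fixed_point_of_prime_dvd_card_of_fixed_point (V →* Multiplicative (ZMod 2)) hd
    (a := 1) (by
      intro p
      show (1 : V →* Multiplicative (ZMod 2)).comp (c p⁻¹).toMonoidHom = 1
      rfl)
  refine ⟨f, hf1.symm, fun p v => ?_⟩
  have h1 : f.comp (c p⁻¹⁻¹).toMonoidHom = f := hf p⁻¹
  rw [inv_inv] at h1
  exact DFunLike.congr_fun h1 v

/-- the elementary abelian group of rank `n + 1` -/
def pairEquiv (n : ℕ) : Multiplicative (ZMod 2) × Multiplicative (Fin n → ZMod 2) ≃*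
    Multiplicative (Fin (n + 1) → ZMod 2) := by
  refine {
    toFun := fun p => Multiplicative.ofAdd (Fin.cons p.1.toAdd p.2.toAdd)
    invFun := fun q => (Multiplicative.ofAdd (q.toAdd 0), Multiplicative.ofAdd fun i => q.toAdd i.succ)
    left_inv := ?_
    right_inv := ?_
    map_mul' := ?_ }
  · rintro ⟨a, b⟩
    rfl
  · intro q
    apply Multiplicative.toAdd.injective
    funext i
    refine Fin.cases ?_ (fun j => ?_) i
    · rfl
    · rfl
  · rintro ⟨a, b⟩ ⟨c, d⟩
    apply Multiplicative.toAdd.injective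
    funext i
    refine Fin.cases ?_ (fun j => ?_) i
    · rfl
    · rfl

/-- **split extensions** -/
theorem rk_of_split {P : Type u} [Group P] [Finite P] (hP : IsPGroup 2 P) {n : ℕ} (V K : Subgroup P) [V.Normal]
    (hV : V ≠ ⊥) (hc : Subgroup.IsComplement' V K) (hK : Rk n K) : Rk (n + 1) P := by
  obtain ⟨f, hf1, hf⟩ := exists_inv_hom hP V hV
  obtain ⟨g, hg⟩ := hK
  let e := pairEquiv n
  let E := SemidirectProduct.mulEquivSubgroup hc
  let F1 : V →* Multiplicative (ZMod 2) × Multiplicative (Fin n → ZMod 2) := f.prod 1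
  let F2 : K →* Multiplicative (ZMod 2) × Multiplicative (Fin n → ZMod 2) := (1 : K →* Multiplicative (ZMod 2)).prod g
  let L := SemidirectProduct.lift (φ := (MulAut.conjNormal.comp K.subtype : K →* MulAut V)) F1 F2 (by
    intro k
    ext v
    · show (f _) = (F2 k * F1 v * (F2 k)⁻¹).1
      have h1 : (F2 k * F1 v * (F2 k)⁻¹).1 = f v := by
        show (1 * f v * 1⁻¹ : Multiplicative (ZMod 2)) = f v
        rw [one_mul, inv_one, mul_one]
      rw [h1]
      exact hf (k : P) v
    · rename_i i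
      have h1 : (1 : Multiplicative (Fin n → ZMod 2)) = g k * 1 * (g k)⁻¹ := by rw [mul_one, mul_inv_cancel]
      exact congrFun (congrArg Multiplicative.toAdd h1) i)
  refine ⟨(e.toMonoidHom.comp L).comp E.symm.toMonoidHom, ?_⟩
  have hL : Function.Surjective L := by
    rintro ⟨a, b⟩
    obtain ⟨k, hk⟩ := hg b
    obtain ⟨v, hv⟩ : ∃ v, f v = a := by
      by_cases ha : a = 1
      · exact ⟨1, by rw [map_one, ha]⟩
      · obtain ⟨v, hv⟩ : ∃ v, f v ≠ 1 := by
          by_contra hcon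
          push Not at hcon
          exact hf1 (MonoidHom.ext hcon)
        refine ⟨v, ?_⟩
        exact eq_of_ne _ _ hv ha
    refine ⟨SemidirectProduct.inl v * SemidirectProduct.inr k, ?_⟩
    rw [map_mul, SemidirectProduct.lift_inl, SemidirectProduct.lift_inr]
    show (f v * 1, 1 * g k) = (a, b)
    rw [mul_one, one_mul, hv, hk]
  exact e.surjective.comp (hL.comp E.symm.surjective)

theorem rk_of_surj {n : ℕ} {P : Type u} {P' : Type v} [Group P] [Group P'] (f : P →* P')
    (hf : Function.Surjective f) (h : Rk n P') : Rk n P := by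
  obtain ⟨g, hg⟩ := h
  exact ⟨g.comp f, hg.comp hf⟩

section

variable {G : Type u} [Group G] {V K : Subgroup G}

theorem mem_sup_of_norm (hn : K ≤ Subgroup.normalizer (V : Set G)) {x : G} (hx : x ∈ V ⊔ K) :
    ∃ v ∈ V, ∃ k ∈ K, x = v * k := by
  let T : Subgroup G :=
    { carrier := {x | ∃ v ∈ V, ∃ k ∈ K, x = v * k}
      one_mem' := ⟨1, V.one_mem, 1, K.one_mem, (one_mul 1).symm⟩
      mul_mem' := by
        rintro _ _ ⟨v, hv, k, hk, rfl⟩ ⟨v', hv', k', hk', rfl⟩
        refine ⟨v * (k * v' * k⁻¹), V.mul_mem hv ((Subgroup.mem_normalizer_iff.1 (hn hk) v').1 hv'), k * k',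
          K.mul_mem hk hk', ?_⟩
        group
      inv_mem' := by
        rintro _ ⟨v, hv, k, hk, rfl⟩
        refine ⟨k⁻¹ * v⁻¹ * k, ?_, k⁻¹, K.inv_mem hk, by group⟩
        have := (Subgroup.mem_normalizer_iff.1 (hn (K.inv_mem hk)) v⁻¹).1 (V.inv_mem hv)
        rwa [inv_inv] at this }
  have hT : V ⊔ K ≤ T := sup_le (fun v hv => ⟨v, hv, 1, K.one_mem, (mul_one v).symm⟩)
    (fun k hk => ⟨1, V.one_mem, k, hk, (one_mul k).symm⟩)
  exact hT hx

theorem card_sup (hn : K ≤ Subgroup.normalizer (V : Set G)) (hd : Disjoint V K) :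
    Nat.card ↥(V ⊔ K) = Nat.card V * Nat.card K := by
  rw [← Nat.card_prod]
  refine (Nat.card_congr (Equiv.ofBijective (fun p : V × K => (⟨p.1 * p.2, Subgroup.mul_mem _
    (Subgroup.mem_sup_left p.1.2) (Subgroup.mem_sup_right p.2.2)⟩ : ↥(V ⊔ K))) ⟨?_, ?_⟩)).symm
  · intro p q h
    exact Subgroup.mul_injective_of_disjoint hd (congrArg Subtype.val h)
  · rintro ⟨x, hx⟩
    obtain ⟨v, hv, k, hk, rfl⟩ := mem_sup_of_norm hn hx
    exact ⟨(⟨v, hv⟩, ⟨k, hk⟩), rfl⟩

/-- **split subgroups of odd index** -/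
theorem d3_of_split [Finite G] (hn : K ≤ Subgroup.normalizer (V : Set G)) (hV : IsPGroup 2 V) (hV1 : V ≠ ⊥)
    (hd : Disjoint V K) (hi : ¬ 2 ∣ (V ⊔ K).index) (Q : Sylow 2 K) (hQ : Rk 2 Q) : D3 G := by
  have hfact : Fact (Nat.Prime 2) := ⟨Nat.prime_two⟩
  set Q' : Subgroup G := (Q : Subgroup K).map K.subtype with hQ'
  have hQK : Q' ≤ K := Subgroup.map_subtype_le _
  have eQ : ↥(Q : Subgroup K) ≃* ↥Q' := (Q : Subgroup K).equivMapOfInjective K.subtype K.subtype_injective
  have hn' : Q' ≤ Subgroup.normalizer (V : Set G) := hQK.trans hn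
  have hd' : Disjoint V Q' := hd.mono_right hQK
  set P : Subgroup G := V ⊔ Q' with hPdef
  have hPle : P ≤ V ⊔ K := sup_le_sup_left hQK V
  have cP : Nat.card P = Nat.card V * Nat.card Q' := card_sup hn' hd'
  have cVK := card_sup hn hd
  have cQ' : Nat.card Q' = Nat.card (Q : Subgroup K) := (Nat.card_congr eQ.toEquiv).symm
  have hP2 : IsPGroup 2 P := by
    obtain ⟨a, ha⟩ := IsPGroup.iff_card.1 hV
    obtain ⟨b, hb⟩ := IsPGroup.iff_card.1 Q.2
    refine IsPGroup.of_card (n := a + b) ?_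
    rw [cP, cQ', ha, hb, pow_add]
  have hPi : ¬ 2 ∣ P.index := by
    have h1 := Subgroup.relIndex_mul_index hPle
    rw [← h1, Nat.prime_two.dvd_mul, not_or]
    refine ⟨?_, hi⟩
    have h2 : P.relIndex (V ⊔ K) = (Q : Subgroup K).index := by
      have h3 := Subgroup.card_mul_index (P.subgroupOf (V ⊔ K))
      have h4 : Nat.card (P.subgroupOf (V ⊔ K)) = Nat.card P :=
        Nat.card_congr (Subgroup.subgroupOfEquivOfLe hPle).toEquiv
      have h5 := (Q : Subgroup K).card_mul_index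
      rw [h4, cP, cVK, cQ', ← h5, mul_assoc] at h3
      have h6 : 0 < Nat.card V := Nat.card_pos
      have h7 : 0 < Nat.card (Q : Subgroup K) := Nat.card_pos
      exact Nat.eq_of_mul_eq_mul_left h7 (Nat.eq_of_mul_eq_mul_left h6 h3)
    rw [h2]
    exact Q.not_dvd_index
  -- rank of `P`
  have hVP : V ≤ P := le_sup_left
  have hQP : Q' ≤ P := le_sup_right
  have hPn : P ≤ Subgroup.normalizer (V : Set G) := sup_le Subgroup.le_normalizer hn'
  have hnor : (V.subgroupOf P).Normal := Subgroup.normal_subgroupOf_of_le_normalizer hPn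
  have hrk : Rk 3 P := by
    refine rk_of_split (n := 2) hP2 (V.subgroupOf P) (Q'.subgroupOf P) ?_ ?_ ?_
    · intro h
      apply hV1
      rw [Subgroup.subgroupOf_eq_bot] at h
      exact disjoint_self.1 (h.mono_right hVP)
    · refine Subgroup.isComplement'_of_disjoint_and_mul_eq_univ ?_ ?_
      · rw [Subgroup.disjoint_def]
        intro x hx hx'
        exact Subtype.ext (Subgroup.disjoint_def.1 hd' hx hx')
      · rw [Set.eq_univ_iff_forall]
        rintro ⟨x, hx⟩
        obtain ⟨v, hv, k, hk, rfl⟩ := mem_sup_of_norm hn' hx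
        exact ⟨⟨v, hVP hv⟩, hv, ⟨k, hQP hk⟩, hk, rfl⟩
    · exact rk_of_surj ((Subgroup.subgroupOfEquivOfLe hQP).trans eQ.symm).toMonoidHom
        ((Subgroup.subgroupOfEquivOfLe hQP).trans eQ.symm).surjective hQ
  intro S
  let T : Sylow 2 G := hP2.toSylow hPi
  exact rk_of_surj (Sylow.equiv S T).toMonoidHom (Sylow.equiv S T).surjective hrk

end

/-- a noncyclic finite 2-group maps onto `C₂ × C₂` -/
theorem rk_two_of_not_cyclic {P : Type u} [Group P] [Finite P] (hP : IsPGroup 2 P) (hc : ¬ IsCyclic P) : Rk 2 P := by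
  have hfact : Fact (Nat.Prime 2) := ⟨Nat.prime_two⟩
  obtain ⟨n, hn⟩ := IsPGroup.iff_card.1 hP
  have hn0 : n ≠ 0 := by
    rintro rfl
    rw [pow_zero, Nat.card_eq_one_iff_unique] at hn
    obtain ⟨h1, -⟩ := hn
    exact hc (isCyclic_of_subsingleton)
  obtain ⟨k, rfl⟩ := Nat.exists_eq_succ_of_ne_zero hn0
  have hidx : ∀ N : Subgroup P, Nat.card N = 2 ^ k → N.index = 2 := by
    intro N hN
    have h1 := N.card_mul_index
    rw [hn, hN, pow_succ] at h1
    exact Nat.eq_of_mul_eq_mul_left (by positivity) h1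
  obtain ⟨N, hN⟩ := Sylow.exists_subgroup_card_pow_prime 2 (G := P) (n := k)
    (by rw [hn]; exact pow_dvd_pow 2 (Nat.le_succ k))
  have hNi := hidx N hN
  have hNt : N ≠ ⊤ := by
    rintro rfl
    rw [Subgroup.index_top] at hNi
    omega
  obtain ⟨x, hx⟩ : ∃ x, x ∉ N := by
    by_contra h
    push Not at h
    exact hNt (eq_top_iff.2 fun y _ => h y)
  obtain ⟨j, hj⟩ := IsPGroup.iff_card.1 (hP.to_subgroup (Subgroup.zpowers x))
  have hjk : j ≤ k := by
    by_contra hlt
    have h1 : 2 ^ (k + 1) ≤ 2 ^ j := Nat.pow_le_pow_right (by norm_num) (by omega)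
    have h2 : Subgroup.zpowers x = ⊤ := Subgroup.eq_top_of_card_eq _ (le_antisymm (Subgroup.card_le_card_group _)
      (by rw [hn, hj]; exact h1))
    exact hc (isCyclic_iff_exists_zpowers_eq_top.2 ⟨x, h2⟩)
  obtain ⟨L, hL, hxL⟩ := Sylow.exists_subgroup_card_pow_prime_le 2 (G := P) (n := j) (m := k)
    (by rw [hn]; exact pow_dvd_pow 2 (Nat.le_succ k)) (Subgroup.zpowers x) hj hjk
  have hLi := hidx L hL
  have hxL' : x ∈ L := hxL (Subgroup.mem_zpowers x)
  -- two homomorphisms
  have key : ∀ M : Subgroup P, M.index = 2 → ∃ f : P →* Multiplicative (ZMod 2), ∀ y, f y = 1 ↔ y ∈ M := by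
    intro M hM
    have hnor : M.Normal := Subgroup.normal_of_index_eq_two hM
    have hc2 : Nat.card (Multiplicative (ZMod 2)) = 2 := by
      show Nat.card (ZMod 2) = 2
      rw [Nat.card_eq_fintype_card, ZMod.card]
    have hcM : Nat.card (P ⧸ M) = 2 := hM
    have hcyc : IsCyclic (P ⧸ M) := isCyclic_of_prime_card hcM
    have hcyc2 : IsCyclic (Multiplicative (ZMod 2)) := isCyclic_of_prime_card hc2
    let e : P ⧸ M ≃* Multiplicative (ZMod 2) := mulEquivOfCyclicCardEq (hcM.trans hc2.symm)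
    refine ⟨e.toMonoidHom.comp (QuotientGroup.mk' M), fun y => ?_⟩
    show e (QuotientGroup.mk' M y) = 1 ↔ _
    rw [map_eq_one_iff e e.injective]
    exact QuotientGroup.eq_one_iff y
  obtain ⟨f, hf⟩ := key N hNi
  obtain ⟨g, hg⟩ := key L hLi
  -- an element outside `L` and inside `N`
  obtain ⟨y, hyN, hyL⟩ : ∃ y, y ∈ N ∧ y ∉ L := by
    by_contra h
    push Not at h
    have h1 : N ≤ L := h
    have h2 : N = L := Subgroup.eq_of_le_of_card_ge h1 (by rw [hN, hL])
    exact hx (h2 ▸ hxL')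
  have hc2 : ∀ a : Multiplicative (ZMod 2), a ≠ 1 → a = Multiplicative.ofAdd 1 := by
    intro a ha
    exact eq_of_ne _ _ ha (fun h => by
      have h1 := congrArg Multiplicative.toAdd h
      exact absurd h1 (by show (1 : ZMod 2) ≠ 0; exact one_ne_zero))
  have f1 : f x = Multiplicative.ofAdd 1 := hc2 _ fun h => hx ((hf x).1 h)
  have f2 : f y = 1 := (hf y).2 hyN
  have g1 : g x = 1 := (hg x).2 hxL'
  have g2 : g y = Multiplicative.ofAdd 1 := hc2 _ fun h => hyL ((hg y).1 h)
  let e1 : Multiplicative (ZMod 2) ≃* Multiplicative (Fin 1 → ZMod 2) :=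
    { toFun := fun a => Multiplicative.ofAdd fun _ => a.toAdd
      invFun := fun b => Multiplicative.ofAdd (b.toAdd 0)
      left_inv := fun _ => rfl
      right_inv := fun b => by
        apply Multiplicative.toAdd.injective
        funext i
        rw [Subsingleton.elim i 0]
        rfl
      map_mul' := fun _ _ => rfl }
  refine ⟨(pairEquiv 1).toMonoidHom.comp (f.prod (e1.toMonoidHom.comp g)), (pairEquiv 1).surjective.comp ?_⟩
  rintro ⟨a, b⟩
  have hab : ∀ a : Multiplicative (ZMod 2), a = 1 ∨ a = Multiplicative.ofAdd 1 := fun a => by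
    by_cases ha : a = 1
    · exact Or.inl ha
    · exact Or.inr (hc2 a ha)
  obtain ⟨b, rfl⟩ := e1.surjective b
  rcases hab a with rfl | rfl <;> rcases hab b with rfl | rfl
  · exact ⟨1, by rw [map_one, map_one]; rfl⟩
  · exact ⟨y, by show (f y, e1 (g y)) = _; rw [f2, g2]⟩
  · exact ⟨x, by show (f x, e1 (g x)) = _; rw [f1, g1]⟩
  · exact ⟨x * y, by show (f (x * y), e1 (g (x * y))) = _; rw [map_mul, map_mul, f1, f2, g1, g2, mul_one, one_mul]⟩

end Cfsg.Agent.H753.K547
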